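import Cfsg.Agent.H91.PermClasses.Weight
import Cfsg.Agent.H56.Coprime
import Mathlib.Algebra.Group.Conj
import Mathlib.Algebra.Order.Field.GeomSum
import Mathlib.Data.Nat.ChineseRemainder
import Mathlib.Data.Nat.Prime.Factorial

/-!
Elementary bound `k(G) ≤ 5 ^ (d - 1)` for permutation groups of degree `d`.

Classes of elements are built one prime at a time: for the `p`-part `x`, the centraliser of `x`
acts on the cycles of `x` with a `p`-group as kernel.
-/

namespace Cfsg.Agent.H91.PermClasses

open Equiv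

/-- Number of conjugacy classes of elements whose order involves only the primes in `S`. -/
noncomputable def numCl {G : Type} [Group G] (S : Finset ℕ) : ℕ :=
  Nat.card {c : ConjClasses G // ∃ g, ConjClasses.mk g = c ∧ (orderOf g).primeFactors ⊆ S}

/-- The base of the exponential bound after treating the primes in `T`. -/
noncomputable def base (T : Finset ℕ) : ℝ := 3 * Real.exp (∑ p ∈ T, (1 / 3 : ℝ) ^ (p - 1))

theorem three_le_base (T : Finset ℕ) : 3 ≤ base T := by
  have : (1 : ℝ) ≤ Real.exp (∑ p ∈ T, (1 / 3 : ℝ) ^ (p - 1)) :=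
    Real.one_le_exp (Finset.sum_nonneg fun _ _ => by positivity)
  unfold base
  linarith

theorem nOrb_le_card {X : Type} [Fintype X] (x : Perm X) : nOrb x ≤ Fintype.card X := by
  unfold nOrb
  rw [← Nat.card_eq_fintype_card]
  exact Nat.card_le_card_of_surjective _ Quotient.mk_surjective

instance nonempty_cycles {X : Type} [Nonempty X] (x : Perm X) :
    Nonempty (Quotient (Perm.SameCycle.setoid x)) :=
  ⟨Quotient.mk _ (Classical.arbitrary X)⟩

instance finite_conjClasses {G : Type*} [Group G] [Finite G] : Finite (ConjClasses G) :=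
  Finite.of_surjective ConjClasses.mk ConjClasses.mk_surjective

theorem nOrb_pos {X : Type} [Fintype X] [Nonempty X] (x : Perm X) : 1 ≤ nOrb x :=
  Nat.card_pos

/-- A centraliser of `u` acts on the cycles of `u`. -/
noncomputable def cycleAction {X : Type} {G : Subgroup (Perm X)} (u : G) :
    Subgroup.centralizer ({u} : Set G) →* Perm (Quotient (Perm.SameCycle.setoid (u : Perm X))) where
  toFun h := Quotient.congr ((h : G) : Perm X) (fun a b => by
    have hc : Commute ((h : G) : Perm X) (u : Perm X) := by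
      have := Subgroup.mem_centralizer_singleton_iff.1 h.2
      exact congrArg Subtype.val this
    show Perm.SameCycle (u : Perm X) a b ↔ Perm.SameCycle (u : Perm X) _ _
    constructor
    · rintro ⟨k, hk⟩
      refine ⟨k, ?_⟩
      rw [← Perm.mul_apply, ← (hc.zpow_right k).eq, Perm.mul_apply, hk]
    · rintro ⟨k, hk⟩
      refine ⟨k, ?_⟩
      rw [← Perm.mul_apply, ← (hc.zpow_right k).eq, Perm.mul_apply] at hk
      exact ((h : G) : Perm X).injective hk)
  map_one' := by ext q; induction q using Quotient.ind; rfl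
  map_mul' a b := by ext q; induction q using Quotient.ind; rfl

theorem cycleAction_self {X : Type} {G : Subgroup (Perm X)} (u : G)
    (hu : u ∈ Subgroup.centralizer ({u} : Set G)) : cycleAction u ⟨u, hu⟩ = 1 := by
  ext q
  induction q using Quotient.ind with
  | _ a => exact Quotient.sound ⟨-1, by simp⟩

/-- If `u` is a `p`-element, the kernel of its centraliser on the cycles of `u` is a `p`-group. -/
theorem isPGroup_ker {X : Type} {G : Subgroup (Perm X)} (u : G) {p j : ℕ}
    (hu : u ^ p ^ j = 1) : IsPGroup p (cycleAction u).ker := by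
  intro k
  refine ⟨j, Subtype.ext (Subtype.ext (Subtype.ext (Equiv.ext fun y => ?_)))⟩
  simp only [SubgroupClass.coe_pow, OneMemClass.coe_one, Perm.one_apply]
  have hc : Commute (((k : Subgroup.centralizer ({u} : Set G)) : G) : Perm X) (u : Perm X) :=
    congrArg Subtype.val (Subgroup.mem_centralizer_singleton_iff.1
      (k : Subgroup.centralizer ({u} : Set G)).2)
  have hq := Equiv.congr_fun (MonoidHom.mem_ker.1 k.2) ⟦y⟧
  obtain ⟨i, hi⟩ := Quotient.exact hq.symm
  have key : ∀ m : ℕ, ((((k : Subgroup.centralizer ({u} : Set G)) : G) : Perm X) ^ m) y =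
      ((u : Perm X) ^ (i * m)) y := by
    intro m
    induction m with
    | zero => simp
    | succ m ih =>
      rw [pow_succ', Perm.mul_apply, ih, ← Perm.mul_apply, (hc.zpow_right (i * m)).eq,
        Perm.mul_apply, ← hi, ← Perm.mul_apply, ← zpow_add]
      congr 2
      push_cast
      ring
  rw [key, zpow_mul', zpow_natCast, ← SubgroupClass.coe_pow, hu]
  simp

set_option maxHeartbeats 1000000 in
/-- Adding the prime `p`. -/
theorem numCl_insert_le {X : Type} [Fintype X] (G : Subgroup (Perm X)) (S : Finset ℕ) {p : ℕ}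
    [hp : Fact p.Prime] (P : Sylow p G) [Fintype (P : Subgroup G)] :
    numCl (G := G) (insert p S) ≤
      ∑ u : (P : Subgroup G), numCl (G := (cycleAction (u : G)).range) S := by
  classical
  let N := Nat.card G
  have hN0 : N ≠ 0 := Nat.card_pos.ne'
  have hco : (p ^ N.factorization p).Coprime (N / p ^ N.factorization p) :=
    Nat.Coprime.pow_left _ (Nat.coprime_ordCompl hp.out hN0)
  obtain ⟨e, he1, he0⟩ := Nat.chineseRemainder hco 1 0
  have hordN : p ^ N.factorization p * (N / p ^ N.factorization p) = N := Nat.ordProj_mul_ordCompl_eq_self N p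
  -- `g ^ e` is the `p`-part of `g`
  have hpart : ∀ g : G, (g ^ e) ^ p ^ N.factorization p = 1 := by
    intro g
    obtain ⟨t, ht⟩ := Nat.modEq_zero_iff_dvd.1 he0
    rw [← pow_mul, ht, mul_comm (_ * t), ← mul_assoc, hordN, pow_mul, pow_card_eq_one', one_pow]
  have hpg : ∀ g : G, IsPGroup p (Subgroup.zpowers (g ^ e)) := by
    intro g
    obtain ⟨i, _, hi⟩ := (Nat.dvd_prime_pow hp.out).1 (orderOf_dvd_of_pow_eq_one (hpart g))
    exact IsPGroup.of_card (n := i) (by rw [Nat.card_zpowers, hi])
  have hpres : ∀ c : {c : ConjClasses G // ∃ g, ConjClasses.mk g = c ∧ (orderOf g).primeFactors ⊆ insert p S},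
      ∃ g, ConjClasses.mk g = c.1 ∧ (orderOf g).primeFactors ⊆ insert p S ∧ g ^ e ∈ (P : Subgroup G) := by
    rintro ⟨c, g, rfl, hg⟩
    obtain ⟨Q, hQ⟩ := (hpg g).exists_le_sylow
    obtain ⟨x, hx⟩ := MulAction.exists_smul_eq G Q P
    refine ⟨x * g * x⁻¹, ?_, ?_, ?_⟩
    · exact ConjClasses.mk_eq_mk_iff_isConj.2 (isConj_iff.2 ⟨x⁻¹, by group⟩)
    · rwa [show x * g * x⁻¹ = MulAut.conj x g from rfl, MulEquiv.orderOf_eq]
    · rw [conj_pow, ← hx]
      exact ⟨g ^ e, hQ (Subgroup.mem_zpowers _), rfl⟩
  choose rep hrep using hpres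
  have hmem : ∀ c, rep c ∈ Subgroup.centralizer ({rep c ^ e} : Set G) := fun c =>
    Subgroup.mem_centralizer_singleton_iff.2 ((Commute.refl (rep c)).pow_right e).eq
  have himg : ∀ (u : G) (g : G) (hg : g ∈ Subgroup.centralizer ({u} : Set G)), g ^ e = u →
      (orderOf g).primeFactors ⊆ insert p S →
      (orderOf ((cycleAction u).rangeRestrict ⟨g, hg⟩)).primeFactors ⊆ S := by
    intro u g hg hgu hgS q hq
    have hd1 : orderOf ((cycleAction u).rangeRestrict ⟨g, hg⟩) ∣ orderOf g := by
      refine orderOf_dvd_of_pow_eq_one ?_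
      rw [← map_pow]
      have : (⟨g, hg⟩ : Subgroup.centralizer ({u} : Set G)) ^ orderOf g = 1 :=
        Subtype.ext (by simp [pow_orderOf_eq_one])
      rw [this, map_one]
    have hd2 : orderOf ((cycleAction u).rangeRestrict ⟨g, hg⟩) ∣ e := by
      refine orderOf_dvd_of_pow_eq_one ?_
      rw [← map_pow]
      apply Subtype.ext
      have : (⟨g, hg⟩ : Subgroup.centralizer ({u} : Set G)) ^ e =
          ⟨u, Subgroup.mem_centralizer_singleton_iff.2 rfl⟩ := Subtype.ext (by simpa using hgu)
      rw [this]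
      exact cycleAction_self u _
    obtain ⟨hqp, hqd, -⟩ := Nat.mem_primeFactors.1 hq
    have hqS := hgS (Nat.mem_primeFactors.2 ⟨hqp, hqd.trans hd1, (orderOf_pos g).ne'⟩)
    rcases Finset.mem_insert.1 hqS with h | h
    · exfalso
      subst h
      have hqN : q ∣ N := (hqd.trans hd1).trans (orderOf_dvd_natCard g)
      have h1 : q ∣ q ^ N.factorization q :=
        dvd_pow_self q (hp.out.factorization_pos_of_dvd hN0 hqN).ne'
      have h2 : 1 ≡ 0 [MOD q] :=
        ((he1.of_dvd h1).symm).trans (Nat.modEq_zero_iff_dvd.2 (hqd.trans hd2))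
      exact hp.out.not_dvd_one (Nat.modEq_zero_iff_dvd.1 h2)
    · exact h
  let Φ : {c : ConjClasses G // ∃ g, ConjClasses.mk g = c ∧ (orderOf g).primeFactors ⊆ insert p S} →
      Σ u : (P : Subgroup G), {c : ConjClasses (cycleAction (u : G)).range //
        ∃ g, ConjClasses.mk g = c ∧ (orderOf g).primeFactors ⊆ S} := fun c =>
    ⟨⟨rep c ^ e, (hrep c).2.2⟩,
      ⟨ConjClasses.mk ((cycleAction (rep c ^ e)).rangeRestrict ⟨rep c, hmem c⟩),
        _, rfl, himg _ _ (hmem c) rfl (hrep c).2.1⟩⟩
  have key : ∀ (u g g' : G) (hg : g ∈ Subgroup.centralizer ({u} : Set G))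
      (hg' : g' ∈ Subgroup.centralizer ({u} : Set G)), g ^ e = u → g' ^ e = u →
      IsConj ((cycleAction u).rangeRestrict ⟨g, hg⟩) ((cycleAction u).rangeRestrict ⟨g', hg'⟩) →
      IsConj g g' := by
    intro u g g' hg hg' hgu hgu' h
    obtain ⟨z, hz⟩ := isConj_iff.1 h
    obtain ⟨w, rfl⟩ := (cycleAction u).rangeRestrict_surjective z
    have hz' : cycleAction u (w * ⟨g, hg⟩ * w⁻¹) = cycleAction u ⟨g', hg'⟩ := by
      rw [map_mul, map_mul, map_inv]
      exact congrArg Subtype.val hz
    -- work in the centraliser `C` with kernel `K`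
    let a : Subgroup.centralizer ({u} : Set G) := w * ⟨g, hg⟩ * w⁻¹
    let b : Subgroup.centralizer ({u} : Set G) := ⟨g', hg'⟩
    let uC : Subgroup.centralizer ({u} : Set G) := ⟨u, Subgroup.mem_centralizer_singleton_iff.2 rfl⟩
    have huc : ∀ c : Subgroup.centralizer ({u} : Set G), Commute uC c := fun c =>
      Subtype.ext (Subgroup.mem_centralizer_singleton_iff.1 c.2).symm
    have hae : a ^ e = uC := by
      show (w * ⟨g, hg⟩ * w⁻¹) ^ e = uC
      rw [conj_pow, show (⟨g, hg⟩ : Subgroup.centralizer ({u} : Set G)) ^ e = uC from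
        Subtype.ext (by simpa using hgu), ← (huc w).eq, mul_inv_cancel_right]
    have hbe : b ^ e = uC := Subtype.ext (by simpa [b, uC] using hgu')
    have hab : cycleAction u a = cycleAction u b := hz'
    have hu1 : cycleAction u uC = 1 := cycleAction_self u _
    -- `y := uC⁻¹ * a` and `y' := uC⁻¹ * b` are the `p'`-parts
    have hy : ∀ c : Subgroup.centralizer ({u} : Set G), c ^ e = uC →
        (uC⁻¹ * c) ^ (N / p ^ N.factorization p) = 1 := by
      intro c hc
      rw [← hc, ← zpow_natCast c e, ← zpow_neg, ← zpow_add_one, ← zpow_natCast, ← zpow_mul]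
      apply orderOf_dvd_iff_zpow_eq_one.1
      have h1 : (orderOf c : ℤ) ∣ N := by
        rw [← Subgroup.orderOf_coe]
        exact_mod_cast orderOf_dvd_natCard (c : G)
      refine h1.trans ?_
      rw [show (N : ℤ) = ((p ^ N.factorization p * (N / p ^ N.factorization p) : ℕ) : ℤ) by rw [hordN],
        Nat.cast_mul]
      refine mul_dvd_mul ?_ dvd_rfl
      have := Nat.modEq_iff_dvd.1 he1
      push_cast at this
      simpa [add_comm, sub_eq_add_neg] using this
    obtain ⟨i, hi⟩ := IsPGroup.iff_card.1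
      (isPGroup_ker u (j := N.factorization p) (hgu ▸ hpart g))
    obtain ⟨z, -, hz⟩ := Cfsg.Agent.H56.exists_conj_of_coset_of_coprime
      (N / p ^ N.factorization p) (cycleAction u).ker (uC⁻¹ * b) (uC⁻¹ * a)
      (by rw [Subgroup.normalizer_eq_top]; trivial)
      (hy b hbe) (hy a hae)
      (by
        show cycleAction u ((uC⁻¹ * a) * (uC⁻¹ * b)⁻¹) = 1
        rw [map_mul, map_mul (cycleAction u) _ a, map_inv (cycleAction u) (uC⁻¹ * b),
          map_mul (cycleAction u) _ b, map_inv, hu1, hab]
        simp)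
      (by rw [hi]; exact (Nat.Coprime.pow_left _ (Nat.coprime_ordCompl hp.out hN0)).symm)
    have hz2 : z * a * z⁻¹ = b := by
      have h1 : uC * (z * (uC⁻¹ * a) * z⁻¹) = z * a * z⁻¹ := by
        rw [← mul_assoc uC, ← mul_assoc uC, (huc z).eq]; group
      rw [← h1, hz, mul_inv_cancel_left]
    refine isConj_iff.2 ⟨((z * w : Subgroup.centralizer ({u} : Set G)) : G), ?_⟩
    have := congrArg Subtype.val hz2
    simp only [a, b, Subgroup.coe_mul, Subgroup.coe_inv] at this
    rw [Subgroup.coe_mul, mul_inv_rev, ← this]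
    group
  have aux : ∀ (s t : Σ u : (P : Subgroup G), {c : ConjClasses (cycleAction (u : G)).range //
        ∃ g, ConjClasses.mk g = c ∧ (orderOf g).primeFactors ⊆ S}), s = t →
      ∀ (g g' : G) (hg : g ∈ Subgroup.centralizer ({(s.1 : G)} : Set G))
        (hg' : g' ∈ Subgroup.centralizer ({(t.1 : G)} : Set G)),
        g ^ e = s.1 → g' ^ e = t.1 →
        s.2.1 = ConjClasses.mk ((cycleAction (s.1 : G)).rangeRestrict ⟨g, hg⟩) →
        t.2.1 = ConjClasses.mk ((cycleAction (t.1 : G)).rangeRestrict ⟨g', hg'⟩) → IsConj g g' := by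
    rintro s t rfl g g' hg hg' h1 h2 h3 h4
    exact key _ g g' hg hg' h1 h2 (ConjClasses.mk_eq_mk_iff_isConj.1 (h3.symm.trans h4))
  have hinj : Function.Injective Φ := by
    intro c d h
    apply Subtype.ext
    rw [← (hrep c).1, ← (hrep d).1, ConjClasses.mk_eq_mk_iff_isConj]
    exact aux (Φ c) (Φ d) h (rep c) (rep d) (hmem c) (hmem d) rfl rfl rfl rfl
  calc numCl (G := G) (insert p S) ≤ _ := Nat.card_le_card_of_injective Φ hinj
    _ = _ := Nat.card_sigma

theorem eq_of_orderOf_primeFactors_empty {G : Type} [Group G] [Finite G] {g : G}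
    (h : (orderOf g).primeFactors ⊆ ∅) : g = 1 := by
  rw [Finset.subset_empty, Nat.primeFactors_eq_empty] at h
  rcases h with h | h
  · exact absurd h (orderOf_pos g).ne'
  · exact orderOf_eq_one_iff.1 h

/-- Two-elements: at most `2 ^ (d - 1)` classes. -/
theorem numCl_two_le {X : Type} [Fintype X] [Nonempty X] (G : Subgroup (Perm X)) :
    numCl (G := G) (insert 2 ∅) ≤ 2 ^ (Fintype.card X - 1) := by
  classical
  haveI : Fact (Nat.Prime 2) := ⟨Nat.prime_two⟩
  obtain ⟨P⟩ : Nonempty (Sylow 2 G) := inferInstance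
  refine (numCl_insert_le G ∅ P).trans ?_
  refine (Finset.sum_le_card_nsmul _ _ 1 ?_).trans ?_
  · intro u _
    unfold numCl
    rw [Finite.card_le_one_iff_subsingleton]
    constructor
    rintro ⟨a, g, rfl, hg⟩ ⟨b, h, rfl, hh⟩
    apply Subtype.ext
    show ConjClasses.mk g = ConjClasses.mk h
    rw [eq_of_orderOf_primeFactors_empty hg, eq_of_orderOf_primeFactors_empty hh]
  · rw [Finset.card_univ, smul_eq_mul, mul_one, ← Nat.card_eq_fintype_card,
      Nat.card_congr ((P : Subgroup G).equivMapOfInjective G.subtype G.subtype_injective).toEquiv]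
    obtain ⟨a, ha, hab⟩ := exists_card_eq_pow ((P : Subgroup G).map G.subtype) (P.isPGroup'.map _)
    rw [ha]
    exact Nat.pow_le_pow_right (by norm_num) (by omega)

theorem numCl_le_base (T : Finset ℕ) (hT : ∀ p ∈ T, p.Prime ∧ 3 ≤ p) :
    ∀ (X : Type) [Fintype X] [Nonempty X] (G : Subgroup (Perm X)),
      (numCl (G := G) (insert 2 T) : ℝ) ≤ base T ^ (Fintype.card X - 1) := by
  classical
  induction T using Finset.induction_on with
  | empty =>
    intro X _ _ G
    have h := numCl_two_le G
    calc (numCl (G := G) (insert 2 ∅) : ℝ) ≤ (2 : ℝ) ^ (Fintype.card X - 1) := by exact_mod_cast h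
      _ ≤ _ := pow_le_pow_left₀ (by norm_num) (by simpa using (three_le_base ∅).trans' (by norm_num)) _
  | @insert p T hpT ih =>
    intro X _ _ G
    have hp := hT p (Finset.mem_insert_self _ _)
    haveI : Fact p.Prime := ⟨hp.1⟩
    obtain ⟨P⟩ : Nonempty (Sylow p G) := inferInstance
    let B := base T
    let d := Fintype.card X
    have hB : 3 ≤ B := three_le_base T
    let P' : Subgroup (Perm X) := (P : Subgroup G).map G.subtype
    have hd : 1 ≤ d := Fintype.card_pos
    rw [Finset.insert_comm]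
    have h1 := numCl_insert_le G (insert 2 T) P
    have h2 : (numCl (G := G) (insert p (insert 2 T)) : ℝ) ≤
        ∑ u : (P : Subgroup G), B ^ (nOrb ((u : G) : Perm X) - 1) := by
      refine (Nat.cast_le.2 h1).trans ?_
      rw [Nat.cast_sum]
      refine Finset.sum_le_sum fun u _ => ?_
      have := ih (fun q hq => hT q (Finset.mem_insert_of_mem hq))
        (Quotient (Perm.SameCycle.setoid ((u : G) : Perm X))) (cycleAction (u : G)).range
      rw [← Nat.card_eq_fintype_card] at this
      exact this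
    refine h2.trans ?_
    have h3 : ∑ u : (P : Subgroup G), (3 : ℝ) ^ nOrb ((u : G) : Perm X) ≤ 3 ^ d * cst p ^ (d - 1) := by
      have := sum_three_pow_nOrb_le hp.2 d X P' rfl (P.isPGroup'.map _)
      refine le_trans (le_of_eq ?_) this
      exact Fintype.sum_equiv
        ((P : Subgroup G).equivMapOfInjective G.subtype G.subtype_injective).toEquiv _ _ (fun _ => rfl)
    have h4 : ∀ u : (P : Subgroup G), B ^ (nOrb ((u : G) : Perm X) - 1) ≤
        (3 : ℝ) ^ nOrb ((u : G) : Perm X) * ((B / 3) ^ d / B) := by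
      intro u
      have ho := nOrb_le_card ((u : G) : Perm X)
      have ho1 := nOrb_pos ((u : G) : Perm X)
      rw [← mul_div_assoc, le_div_iff₀ (by linarith), ← pow_succ,
        Nat.sub_add_cancel ho1]
      calc B ^ nOrb ((u : G) : Perm X) = 3 ^ nOrb ((u : G) : Perm X) * (B / 3) ^ nOrb ((u : G) : Perm X) := by
            rw [← mul_pow]; congr 1; ring
        _ ≤ _ := mul_le_mul_of_nonneg_left (pow_le_pow_right₀ (by linarith) ho) (by positivity)
    calc ∑ u : (P : Subgroup G), B ^ (nOrb ((u : G) : Perm X) - 1)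
        ≤ ∑ u : (P : Subgroup G), (3 : ℝ) ^ nOrb ((u : G) : Perm X) * ((B / 3) ^ d / B) :=
          Finset.sum_le_sum fun u _ => h4 u
      _ ≤ 3 ^ d * cst p ^ (d - 1) * ((B / 3) ^ d / B) := by
          rw [← Finset.sum_mul]
          exact mul_le_mul_of_nonneg_right h3 (by positivity)
      _ = base (insert p T) ^ (d - 1) := by
          have : base (insert p T) = B * cst p := by
            simp only [B, base, cst, Finset.sum_insert hpT, Real.exp_add]; ring
          rw [this, mul_pow, div_pow]
          obtain ⟨k, hk⟩ : ∃ k, d = k + 1 := ⟨d - 1, by omega⟩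
          rw [hk, Nat.add_sub_cancel]
          field_simp
          ring

theorem base_le_five (n : ℕ) :
    base ((Finset.range (n + 1)).filter (fun p => p.Prime ∧ 3 ≤ p)) ≤ 5 := by
  have h1 : ∑ p ∈ (Finset.range (n + 1)).filter (fun p => p.Prime ∧ 3 ≤ p), (1 / 3 : ℝ) ^ (p - 1) ≤
      ∑ k ∈ Finset.Ico 2 (n + 2), (1 / 3 : ℝ) ^ k := by
    rw [← Finset.sum_image (g := fun p => p - 1) (f := fun k => (1 / 3 : ℝ) ^ k)
      (fun a ha b hb h => by
        simp only [Finset.coe_filter, Set.mem_setOf_eq] at ha hb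
        simp only at h; omega)]
    refine Finset.sum_le_sum_of_subset_of_nonneg ?_ (fun _ _ _ => by positivity)
    intro k hk
    obtain ⟨q, hq, rfl⟩ := Finset.mem_image.1 hk
    simp only [Finset.mem_filter, Finset.mem_range] at hq
    simp only [Finset.mem_Ico]; omega
  have h2 := geom_sum_Ico_le_of_lt_one (K := ℝ) (x := 1 / 3) (m := 2) (n := n + 2) (by norm_num) (by norm_num)
  have h3 : ∑ p ∈ (Finset.range (n + 1)).filter (fun p => p.Prime ∧ 3 ≤ p), (1 / 3 : ℝ) ^ (p - 1) ≤ 1 / 6 :=
    h1.trans (h2.trans (by norm_num))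
  unfold base
  have h4 := Real.exp_le_exp.2 h3
  have h5 := Real.exp_bound_div_one_sub_of_interval (x := 1 / 6) (by norm_num) (by norm_num)
  norm_num at h5 ⊢
  linarith

/-- A permutation group of degree `d` has at most `5 ^ (d - 1)` classes. -/
theorem card_conjClasses_le {X : Type} [Fintype X] [Nonempty X] (G : Subgroup (Perm X)) :
    Nat.card (ConjClasses G) ≤ 5 ^ (Fintype.card X - 1) := by
  classical
  let T := (Finset.range (Fintype.card X + 1)).filter (fun p => p.Prime ∧ 3 ≤ p)
  have h := numCl_le_base T (fun p hp => (Finset.mem_filter.1 hp).2) X G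
  have hall : ∀ c : ConjClasses G, ∃ g, ConjClasses.mk g = c ∧ (orderOf g).primeFactors ⊆ insert 2 T := by
    intro c
    obtain ⟨g, rfl⟩ := ConjClasses.exists_rep c
    refine ⟨g, rfl, fun q hq => ?_⟩
    obtain ⟨hqp, hqd, -⟩ := Nat.mem_primeFactors.1 hq
    have hdvd : q ∣ (Fintype.card X).factorial := by
      rw [← Nat.card_eq_fintype_card (α := X), ← Nat.card_perm]
      exact hqd.trans ((orderOf_dvd_natCard g).trans (Subgroup.card_subgroup_dvd_card G))
    have hle := (Nat.Prime.dvd_factorial hqp).1 hdvd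
    rcases eq_or_lt_of_le hqp.two_le with h2 | h2
    · exact h2 ▸ Finset.mem_insert_self _ _
    · exact Finset.mem_insert_of_mem (Finset.mem_filter.2 ⟨Finset.mem_range.2 (by omega), hqp, h2⟩)
  have heq : numCl (G := G) (insert 2 T) = Nat.card (ConjClasses G) :=
    Nat.card_congr (Equiv.subtypeUnivEquiv hall)
  rw [heq] at h
  have : (Nat.card (ConjClasses G) : ℝ) ≤ ((5 ^ (Fintype.card X - 1) : ℕ) : ℝ) := by
    push_cast
    exact h.trans (pow_le_pow_left₀ (by linarith [three_le_base T]) (base_le_five _) _)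
  exact_mod_cast this

end Cfsg.Agent.H91.PermClasses
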