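import Mathlib.Analysis.Complex.Exponential
import Mathlib.GroupTheory.Perm.Cycle.Basic
import Mathlib.GroupTheory.Sylow
import Mathlib.GroupTheory.Nilpotent
import Mathlib.GroupTheory.GroupAction.Quotient
import Mathlib.NumberTheory.Padics.PadicVal.Basic
import Mathlib.Data.Fintype.BigOperators
import Mathlib.Data.Finite.Perm

/-!
Orbit-weighted element count of a permutation `p`-group, `p` odd:
`∑ x ∈ P, 3 ^ #orbits(x) ≤ 3 ^ d * c ^ (d - 1)` with `c = exp ((1/3)^(p-1))`.
-/

namespace Cfsg.Agent.H91.PermClasses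

open Equiv

/-- Number of cycles (fixed points included) of a permutation. -/
noncomputable def nOrb {X : Type} (x : Perm X) : ℕ :=
  Nat.card (Quotient (Perm.SameCycle.setoid x))

/-- The per-point growth factor of the prime `p`. -/
noncomputable def cst (p : ℕ) : ℝ := Real.exp ((1 / 3 : ℝ) ^ (p - 1))

theorem one_le_cst (p : ℕ) : 1 ≤ cst p := Real.one_le_exp (by positivity)

theorem one_add_le_cst_pow (p : ℕ) :
    1 + ((p - 1 : ℕ) : ℝ) * (1 / 3) ^ (p - 1) ≤ cst p ^ (p - 1) := by
  have h := Real.add_one_le_exp (((p - 1 : ℕ) : ℝ) * (1 / 3) ^ (p - 1))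
  rw [cst, ← Real.exp_nat_mul]
  linarith

/-- A `p`-group of permutations of `d` points has order `p ^ a` with `(p - 1) * a ≤ d - 1`. -/
theorem exists_card_eq_pow {X : Type} [Fintype X] [Nonempty X] {p : ℕ} [hp : Fact p.Prime]
    (P : Subgroup (Perm X)) (hP : IsPGroup p P) :
    ∃ a, Nat.card P = p ^ a ∧ (p - 1) * a ≤ Fintype.card X - 1 := by
  obtain ⟨a, ha⟩ := IsPGroup.iff_card.1 hP
  refine ⟨a, ha, ?_⟩
  have hd : p ^ a ∣ (Fintype.card X).factorial := by
    rw [← ha, ← Nat.card_eq_fintype_card (α := X), ← Nat.card_perm]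
    exact Subgroup.card_subgroup_dvd_card P
  have h1 : a ≤ padicValNat p (Fintype.card X).factorial :=
    (padicValNat_dvd_iff_le (Nat.factorial_pos _).ne').1 hd
  have h2 := sub_one_mul_padicValNat_factorial (p := p) (Fintype.card X)
  have h3 : 0 < (p.digits (Fintype.card X)).sum := by
    have hne : Fintype.card X ≠ 0 := Fintype.card_ne_zero
    by_contra h
    have h0 : (p.digits (Fintype.card X)).sum = 0 := by omega
    have hl := Nat.getLast_digit_ne_zero p hne
    exact hl (List.sum_eq_zero_iff.1 h0 _ (List.getLast_mem _))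
  calc (p - 1) * a ≤ (p - 1) * padicValNat p (Fintype.card X).factorial :=
        Nat.mul_le_mul_left _ h1
    _ ≤ Fintype.card X - 1 := by rw [h2]; omega

section Fibre

variable {X : Type} [Fintype X]

/-- Restriction of an `f`-preserving subgroup to the fibre over `i`. -/
def restrictFibre {I : Type} (f : X → I) (P : Subgroup (Perm X))
    (hf : ∀ g ∈ P, ∀ y, f (g y) = f y) (i : I) : P →* Perm {y // f y = i} where
  toFun g := Perm.subtypePerm (g : Perm X) (fun y => by simp [hf g g.2 y])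
  map_one' := by ext y; simp
  map_mul' _ _ := by ext _; rfl

theorem sameCycle_restrictFibre {I : Type} (f : X → I) (P : Subgroup (Perm X))
    (hf : ∀ g ∈ P, ∀ y, f (g y) = f y) (x : P) {i : I} {a b : {y // f y = i}}
    (h : (restrictFibre f P hf i x).SameCycle a b) : (x : Perm X).SameCycle (a : X) (b : X) := by
  obtain ⟨k, hk⟩ := h
  refine ⟨k, ?_⟩
  rw [← hk, ← map_zpow]
  rfl

theorem nOrb_eq_sum_fibres {I : Type} [Fintype I] (f : X → I) (P : Subgroup (Perm X))
    (hf : ∀ g ∈ P, ∀ y, f (g y) = f y) (x : P) :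
    nOrb (x : Perm X) = ∑ i, nOrb (restrictFibre f P hf i x) := by
  classical
  unfold nOrb
  have : ∀ i, Finite (Quotient (Perm.SameCycle.setoid (restrictFibre f P hf i x))) :=
    fun i => inferInstance
  rw [← Nat.card_sigma]
  symm
  let F : (Σ i, Quotient (Perm.SameCycle.setoid (restrictFibre f P hf i x))) →
      Quotient (Perm.SameCycle.setoid (x : Perm X)) := fun s =>
    Quotient.map (Subtype.val)
      (fun a b (h : (restrictFibre f P hf s.1 x).SameCycle a b) =>
        sameCycle_restrictFibre f P hf x h) s.2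
  refine Nat.card_eq_of_bijective F ⟨?_, ?_⟩
  · rintro ⟨i, qa⟩ ⟨j, qb⟩ h
    induction qa using Quotient.ind with
    | _ a =>
      induction qb using Quotient.ind with
      | _ b =>
        have h' : (x : Perm X).SameCycle (a : X) (b : X) := Quotient.exact h
        obtain ⟨k, hk⟩ := h'
        have hij : i = j := by
          rw [← a.2, ← b.2, ← hk]
          exact (hf _ (zpow_mem x.2 k) _).symm
        subst hij
        have : (restrictFibre f P hf i x).SameCycle a b :=
          ⟨k, Subtype.ext (by rw [← map_zpow]; exact hk)⟩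
        exact congrArg (Sigma.mk i) (Quotient.sound this)
  · intro q
    induction q using Quotient.ind with
    | _ y => exact ⟨⟨f y, ⟦⟨y, rfl⟩⟧⟩, rfl⟩

/-- Product bound over the fibres of an invariant surjection. -/
theorem sum_le_of_fibres {p : ℕ} {I : Type} [Fintype I] (f : X → I)
    (hsurj : Function.Surjective f) (P : Subgroup (Perm X)) [Fintype P] (hP : IsPGroup p P)
    (hf : ∀ g ∈ P, ∀ y, f (g y) = f y)
    (ih : ∀ (i : I) [Fintype {y // f y = i}] (Q : Subgroup (Perm {y // f y = i})) [Fintype Q],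
      IsPGroup p Q → ∑ z : Q, (3 : ℝ) ^ nOrb (z : Perm {y // f y = i}) ≤
        3 ^ Fintype.card {y // f y = i} * cst p ^ (Fintype.card {y // f y = i} - 1)) :
    ∑ x : P, (3 : ℝ) ^ nOrb (x : Perm X) ≤
      3 ^ Fintype.card X * cst p ^ (Fintype.card X - Fintype.card I) := by
  classical
  let ρ := restrictFibre f P hf
  let Φ : P → (∀ i, (ρ i).range) := fun x i => ⟨ρ i x, x, rfl⟩
  have hΦ : Function.Injective Φ := by
    intro a b h
    apply Subtype.ext
    ext y
    have := congrArg (fun z => ((z (f y) : Perm {z // f z = f y}) ⟨y, rfl⟩ : X)) h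
    exact this
  have h1 : ∀ x : P, (3 : ℝ) ^ nOrb (x : Perm X) =
      ∏ i, (3 : ℝ) ^ nOrb ((Φ x i : Perm {y // f y = i})) := by
    intro x
    rw [Finset.prod_pow_eq_pow_sum, nOrb_eq_sum_fibres f P hf x]
  have h2 : ∑ i, Fintype.card {y // f y = i} = Fintype.card X := by
    rw [← Fintype.card_sigma]
    exact Fintype.card_congr (Equiv.sigmaFiberEquiv f)
  have h3 : ∑ i, (Fintype.card {y // f y = i} - 1) = Fintype.card X - Fintype.card I := by
    rw [Finset.sum_tsub_distrib, h2]
    · simp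
    · intro i _
      obtain ⟨y, hy⟩ := hsurj i
      exact Fintype.card_pos_iff.2 ⟨⟨y, hy⟩⟩
  calc ∑ x : P, (3 : ℝ) ^ nOrb (x : Perm X)
      = ∑ z ∈ Finset.univ.image Φ, ∏ i, (3 : ℝ) ^ nOrb ((z i : Perm {y // f y = i})) := by
        rw [Finset.sum_image (fun a _ b _ h => hΦ h)]
        exact Finset.sum_congr rfl (fun x _ => h1 x)
    _ ≤ ∑ z : (∀ i, (ρ i).range), ∏ i, (3 : ℝ) ^ nOrb ((z i : Perm {y // f y = i})) :=
        Finset.sum_le_sum_of_subset_of_nonneg (Finset.subset_univ _) (fun _ _ _ => by positivity)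
    _ = ∏ i, ∑ z : (ρ i).range, (3 : ℝ) ^ nOrb ((z : Perm {y // f y = i})) :=
        (Fintype.prod_sum (fun i (z : (ρ i).range) =>
          (3 : ℝ) ^ nOrb ((z : Perm {y // f y = i})))).symm
    _ ≤ ∏ i, (3 : ℝ) ^ Fintype.card {y // f y = i} *
          cst p ^ (Fintype.card {y // f y = i} - 1) :=
        Finset.prod_le_prod (fun i _ => Finset.sum_nonneg (fun _ _ => by positivity))
          (fun i _ => ih i _ (IsPGroup.of_surjective hP (ρ i).rangeRestrict
            (ρ i).rangeRestrict_surjective))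
    _ = _ := by
        rw [Finset.prod_mul_distrib, Finset.prod_pow_eq_pow_sum, Finset.prod_pow_eq_pow_sum,
          h2, h3]

end Fibre

theorem sq_le_three_pow {p : ℕ} (hp : 3 ≤ p) : p ^ 2 ≤ 3 ^ (p - 1) := by
  induction p, hp using Nat.le_induction with
  | base => norm_num
  | succ k hk ih =>
    have : k + 1 - 1 = (k - 1) + 1 := by omega
    rw [this, pow_succ 3]
    nlinarith

/-- The transitive step arithmetic. -/
theorem card_mul_three_pow_le {p a n : ℕ} (hp : 3 ≤ p) (hn : 1 ≤ n)
    (ha : (p - 1) * (a + 1) ≤ p * n - 1) :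
    p ^ a * 3 ^ (n + (p - 1)) ≤ 3 ^ (p * n) := by
  obtain ⟨m, rfl⟩ : ∃ m, n = m + 1 := ⟨n - 1, by omega⟩
  obtain ⟨q, rfl⟩ : ∃ q, p = q + 3 := ⟨p - 3, by omega⟩
  have h1 : (q + 2) * a ≤ (q + 3) * m := by
    have : (q + 3) * (m + 1) - 1 = (q + 3) * m + (q + 2) := by
      rw [Nat.mul_succ]; omega
    rw [show q + 3 - 1 = q + 2 by omega, this, Nat.mul_succ] at ha
    omega
  have h2 : a ≤ 2 * m := by
    by_contra h
    have h' : 2 * m + 1 ≤ a := by omega
    nlinarith
  have h3 := sq_le_three_pow (p := q + 3) (by omega)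
  rw [show q + 3 - 1 = q + 2 by omega] at h3
  calc (q + 3) ^ a * 3 ^ (m + 1 + (q + 3 - 1))
      ≤ (q + 3) ^ (2 * m) * 3 ^ (m + 1 + (q + 2)) := by
        rw [show q + 3 - 1 = q + 2 by omega]
        exact Nat.mul_le_mul_right _ (Nat.pow_le_pow_right (by omega) h2)
    _ = ((q + 3) ^ 2) ^ m * 3 ^ (m + 1 + (q + 2)) := by rw [← pow_mul]
    _ ≤ (3 ^ (q + 2)) ^ m * 3 ^ (m + 1 + (q + 2)) :=
        Nat.mul_le_mul_right _ (Nat.pow_le_pow_left h3 m)
    _ = 3 ^ ((q + 3) * (m + 1)) := by rw [← pow_mul, ← pow_add]; ring_nf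

set_option maxHeartbeats 1000000 in
/-- Main weight bound for one prime. -/
theorem sum_three_pow_nOrb_le {p : ℕ} [hp : Fact p.Prime] (hp3 : 3 ≤ p) :
    ∀ (d : ℕ) (X : Type) [Fintype X] [Nonempty X] (P : Subgroup (Perm X)) [Fintype P],
      Fintype.card X = d → IsPGroup p P →
      ∑ x : P, (3 : ℝ) ^ nOrb (x : Perm X) ≤ 3 ^ d * cst p ^ (d - 1) := by
  classical
  intro d
  induction d using Nat.strong_induction_on with
  | _ d IH =>
  intro X _ _ P _ hd hP
  subst hd
  have hc := one_le_cst p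
  -- common consequence of an invariant surjection with at least two fibres
  have split : ∀ (I : Type) [Fintype I] (f : X → I) (_ : Function.Surjective f)
      (Q : Subgroup (Perm X)) [Fintype Q] (_ : IsPGroup p Q)
      (_ : ∀ g ∈ Q, ∀ y, f (g y) = f y) (_ : 2 ≤ Fintype.card I),
      ∑ x : Q, (3 : ℝ) ^ nOrb (x : Perm X) ≤
        3 ^ Fintype.card X * cst p ^ (Fintype.card X - Fintype.card I) := by
    intro I _ f hsurj Q _ hQ hfQ hI
    refine sum_le_of_fibres f hsurj Q hQ hfQ ?_
    intro i _ R _ hR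
    obtain ⟨y, hy⟩ := hsurj i
    haveI : Nonempty {y // f y = i} := ⟨⟨y, hy⟩⟩
    obtain ⟨j, hj⟩ := Fintype.exists_ne_of_one_lt_card (by omega) i
    obtain ⟨z, hz⟩ := hsurj j
    refine IH _ ?_ _ R rfl hR
    exact Fintype.card_subtype_lt (x := z) (by rw [hz]; exact hj)
  by_cases htr : 2 ≤ Fintype.card (Quotient (MulAction.orbitRel P X))
  · -- intransitive
    refine (split _ (Quotient.mk (MulAction.orbitRel P X)) Quotient.mk_surjective P hP
      (fun g hg y => Quotient.sound ⟨⟨g, hg⟩, rfl⟩) htr).trans ?_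
    exact mul_le_mul_of_nonneg_left (pow_le_pow_right₀ hc (by omega)) (by positivity)
  -- transitive
  obtain ⟨x0⟩ := ‹Nonempty X›
  have hq1 : Subsingleton (Quotient (MulAction.orbitRel P X)) :=
    Fintype.card_le_one_iff_subsingleton.1 (by omega)
  have htrans : ∀ y, ∃ g : P, g • x0 = y := fun y =>
    MulAction.mem_orbit_iff.1 (Quotient.exact (Subsingleton.elim (Quotient.mk (MulAction.orbitRel P X) y) ⟦x0⟧))
  haveI hpre : MulAction.IsPretransitive P X := ⟨fun a b => by
    obtain ⟨g, hg⟩ := htrans a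
    obtain ⟨h, hh⟩ := htrans b
    exact ⟨h * g⁻¹, by rw [mul_smul, ← hg, inv_smul_smul, hh]⟩⟩
  by_cases hd1 : Fintype.card X = 1
  · have hs : Subsingleton X := Fintype.card_le_one_iff_subsingleton.1 (by omega)
    haveI : Subsingleton P := ⟨fun a b => Subtype.ext (Equiv.ext fun y => Subsingleton.elim _ _)⟩
    rw [Fintype.sum_subsingleton _ (1 : P), hd1]
    have : nOrb ((1 : P) : Perm X) ≤ 1 := by
      unfold nOrb
      exact Finite.card_le_one_iff_subsingleton.2
        ⟨fun a b => Quotient.inductionOn₂ a b (fun a b => by rw [Subsingleton.elim a b])⟩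
    simp only [Nat.sub_self, pow_zero, mul_one, pow_one]
    calc (3 : ℝ) ^ nOrb ((1 : P) : Perm X) ≤ 3 ^ 1 := pow_le_pow_right₀ (by norm_num) this
      _ = 3 := pow_one _
  let S : Subgroup P := MulAction.stabilizer P x0
  have hS : S ≠ ⊤ := by
    intro h
    apply hd1
    rw [Fintype.card_eq_one_iff]
    refine ⟨x0, fun y => ?_⟩
    obtain ⟨g, hg⟩ := htrans y
    have : g ∈ S := by rw [h]; trivial
    rw [← hg]; exact this
  obtain ⟨M, hM, hSM⟩ := IsCoatomic.eq_top_or_exists_le_coatom S |>.resolve_left hS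
  haveI : Group.IsNilpotent P := hP.isNilpotent
  haveI hMn : M.Normal :=
    Subgroup.NormalizerCondition.normal_of_coatom M Group.normalizerCondition_of_isNilpotent hM
  have hMi : M.index = p := by
    obtain ⟨k, hk⟩ := IsPGroup.iff_card.1 (hP.to_subgroup M)
    obtain ⟨a, ha⟩ := IsPGroup.iff_card.1 hP
    have hka : k < a := by
      by_contra h
      apply hM.1
      apply Subgroup.eq_top_of_le_card
      rw [hk, ha]
      exact Nat.pow_le_pow_right hp.out.pos (by omega)
    obtain ⟨K, hK, hMK⟩ := Sylow.exists_subgroup_card_pow_succ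
      (p := p) (by rw [ha]; exact Nat.pow_dvd_pow p hka) hk
    have hKtop : K = ⊤ := by
      apply hM.2 K
      refine lt_of_le_of_ne hMK fun h => ?_
      rw [← h, hk] at hK
      exact absurd (Nat.pow_right_injective hp.out.two_le hK) (by omega)
    rw [hKtop, Subgroup.card_top] at hK
    have := M.card_mul_index
    rw [hk, hK, pow_succ] at this
    exact Nat.eq_of_mul_eq_mul_left (pow_pos hp.out.pos k) this
  let M' : Subgroup (Perm X) := M.map P.subtype
  let n := Nat.card (MulAction.orbit M x0)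
  have hdn : Fintype.card X = p * n := by
    have h1 : Nat.card X = S.index := (MulAction.index_stabilizer_of_transitive P x0).symm
    have h2 : n = S.relIndex M := by
      have h := MulAction.index_stabilizer M x0
      have heq : MulAction.stabilizer M x0 = S.subgroupOf M := by ext g; rfl
      rw [heq] at h
      exact h.symm
    rw [← Nat.card_eq_fintype_card, h1, ← Subgroup.relIndex_mul_index hSM, hMi, h2, mul_comm]
  have hn1 : 1 ≤ n := by
    rcases Nat.eq_zero_or_pos n with h | h
    · rw [h, mul_zero] at hdn; exact absurd hdn Fintype.card_ne_zero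
    · exact h
  -- the part inside M
  have hMpart : ∑ x ∈ Finset.univ.filter (fun x : P => x ∈ M), (3 : ℝ) ^ nOrb (x : Perm X) ≤
      3 ^ Fintype.card X * cst p ^ (Fintype.card X - p) := by
    let f : X → Quotient (MulAction.orbitRel M' X) := Quotient.mk _
    have hI : p ≤ Fintype.card (Quotient (MulAction.orbitRel M' X)) := by
      rw [← hMi, Subgroup.index, Nat.card_eq_fintype_card]
      refine Fintype.card_le_of_injective (fun q : P ⧸ M => f ((Quotient.out q : P) • x0)) ?_
      intro q r h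
      obtain ⟨⟨m, hm⟩, hm'⟩ := Quotient.exact h
      obtain ⟨m0, hm0, rfl⟩ := Subgroup.mem_map.1 hm
      have hm2 : m0 • ((Quotient.out r : P) • x0) = (Quotient.out q : P) • x0 := hm'
      have hst : (Quotient.out q : P)⁻¹ * m0 * (Quotient.out r : P) ∈ M := hSM (by
        show ((Quotient.out q : P)⁻¹ * m0 * (Quotient.out r : P)) • x0 = x0
        rw [mul_smul, mul_smul, hm2, inv_smul_smul])
      have h' : (Quotient.out q : P)⁻¹ * (Quotient.out r : P) ∈ M := by
        have h3 := hMn.conj_mem _ (M.inv_mem hm0) (Quotient.out q : P)⁻¹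
        have := M.mul_mem h3 hst
        simpa [mul_assoc] using this
      rw [← QuotientGroup.out_eq' q, ← QuotientGroup.out_eq' r]
      exact QuotientGroup.eq.2 h'
    have hsum := split _ f Quotient.mk_surjective M' ((hP.to_subgroup M).map P.subtype)
      (fun g hg y => Quotient.sound ⟨⟨g, hg⟩, rfl⟩) (le_trans (by omega) hI)
    calc ∑ x ∈ Finset.univ.filter (fun x : P => x ∈ M), (3 : ℝ) ^ nOrb (x : Perm X)
        = ∑ x : M', (3 : ℝ) ^ nOrb (x : Perm X) := by
          rw [Finset.sum_subtype (p := fun x : P => x ∈ M) _ (by simp)]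
          refine Fintype.sum_bijective
            (fun x : {x : P // x ∈ M} => (⟨(x.1 : Perm X), Subgroup.mem_map.2 ⟨x.1, x.2, rfl⟩⟩ : M'))
            ⟨?_, ?_⟩ _ _ (fun _ => rfl)
          · intro a b h
            simp only [Subtype.mk.injEq] at h
            exact Subtype.ext (Subtype.ext h)
          · rintro ⟨g, hg⟩
            obtain ⟨g0, hg0, rfl⟩ := Subgroup.mem_map.1 hg
            exact ⟨⟨g0, hg0⟩, rfl⟩
      _ ≤ _ := hsum
      _ ≤ _ := mul_le_mul_of_nonneg_left (pow_le_pow_right₀ hc (by omega)) (by positivity)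
  -- elements outside M have at most n cycles
  have hout : ∀ x : P, x ∉ M → nOrb (x : Perm X) ≤ n := by
    intro x hx
    have htop : Subgroup.zpowers x ⊔ M = ⊤ :=
      hM.2 _ (lt_of_le_of_ne le_sup_right fun h =>
        hx (h ▸ (le_sup_left : Subgroup.zpowers x ≤ _) (Subgroup.mem_zpowers x)))
    refine Nat.card_le_card_of_surjective
      (fun y : MulAction.orbit M x0 => (Quotient.mk (Perm.SameCycle.setoid (x : Perm X)) (y : X))) ?_
    intro q
    induction q using Quotient.ind with
    | _ y =>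
      obtain ⟨g, rfl⟩ := htrans y
      have hg : g ∈ Subgroup.zpowers x ⊔ M := by rw [htop]; trivial
      obtain ⟨z, ⟨i, rfl⟩, m, hm, rfl⟩ := Subgroup.mem_sup_of_normal_right.1 hg
      refine ⟨⟨m • x0, ⟨m, hm⟩, rfl⟩, Quotient.sound ⟨i, ?_⟩⟩
      rw [mul_smul]
      simp [Subgroup.smul_def]
  obtain ⟨a, ha, hab⟩ := exists_card_eq_pow P hP
  have ha1 : ∃ b, a = b + 1 ∧ Nat.card M = p ^ b := by
    have := M.card_mul_index
    rw [hMi, ha] at this
    rcases Nat.eq_zero_or_pos a with h | h
    · exfalso; rw [h, pow_zero] at this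
      exact hp.out.one_lt.ne' (Nat.eq_one_of_mul_eq_one_left this)
    · refine ⟨a - 1, by omega, ?_⟩
      rw [show p ^ a = p ^ (a - 1) * p by rw [← pow_succ]; congr 1; omega] at this
      exact Nat.eq_of_mul_eq_mul_right hp.out.pos this
  obtain ⟨b, rfl, hb⟩ := ha1
  have hcount : (Finset.univ.filter (fun x : P => x ∉ M)).card = (p - 1) * p ^ b := by
    rw [Finset.filter_not, ← Finset.compl_eq_univ_sdiff, Finset.card_compl]
    rw [show (Finset.univ.filter (fun x : P => x ∈ M)).card = p ^ b by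
      rw [← hb, Nat.card_eq_fintype_card]; exact (Fintype.card_subtype _).symm]
    rw [← Nat.card_eq_fintype_card, ha, Nat.sub_mul, one_mul, pow_succ, mul_comm]
  have harith := card_mul_three_pow_le hp3 hn1 (by rw [← hdn]; exact hab : (p - 1) * (b + 1) ≤ p * n - 1)
  have hq : ((p - 1 : ℕ) : ℝ) * (p : ℝ) ^ b * 3 ^ n ≤
      3 ^ Fintype.card X * (((p - 1 : ℕ) : ℝ) * (1 / 3) ^ (p - 1)) := by
    rw [hdn]
    have h' : (p : ℝ) ^ b * 3 ^ (n + (p - 1)) ≤ 3 ^ (p * n) := by exact_mod_cast harith
    have h'' : (p : ℝ) ^ b * 3 ^ n ≤ 3 ^ (p * n) * (1 / 3) ^ (p - 1) := by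
      rw [one_div_pow, mul_one_div, le_div_iff₀ (by positivity), mul_assoc, ← pow_add]
      exact h'
    calc ((p - 1 : ℕ) : ℝ) * (p : ℝ) ^ b * 3 ^ n
        = ((p - 1 : ℕ) : ℝ) * ((p : ℝ) ^ b * 3 ^ n) := by ring
      _ ≤ ((p - 1 : ℕ) : ℝ) * (3 ^ (p * n) * (1 / 3) ^ (p - 1)) :=
          mul_le_mul_of_nonneg_left h'' (by positivity)
      _ = _ := by ring
  have hpd : p ≤ Fintype.card X := by rw [hdn]; exact Nat.le_mul_of_pos_right p hn1
  have hC : 1 ≤ cst p ^ (Fintype.card X - p) := one_le_pow₀ hc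
  rw [← Finset.sum_filter_add_sum_filter_not Finset.univ (fun x : P => x ∈ M)]
  calc _ ≤ 3 ^ Fintype.card X * cst p ^ (Fintype.card X - p) +
        ((p - 1 : ℕ) : ℝ) * (p : ℝ) ^ b * 3 ^ n := by
        refine add_le_add hMpart ?_
        refine (Finset.sum_le_card_nsmul _ _ ((3 : ℝ) ^ n) ?_).trans ?_
        · intro x hx
          exact pow_le_pow_right₀ (by norm_num) (hout x (Finset.mem_filter.1 hx).2)
        · rw [hcount, nsmul_eq_mul]; push_cast; exact le_rfl
    _ ≤ 3 ^ Fintype.card X * cst p ^ (Fintype.card X - p) +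
        3 ^ Fintype.card X * (((p - 1 : ℕ) : ℝ) * (1 / 3) ^ (p - 1)) *
          cst p ^ (Fintype.card X - p) :=
        add_le_add le_rfl (hq.trans (le_mul_of_one_le_right (by positivity) hC))
    _ = 3 ^ Fintype.card X * ((1 + ((p - 1 : ℕ) : ℝ) * (1 / 3) ^ (p - 1)) *
          cst p ^ (Fintype.card X - p)) := by ring
    _ ≤ 3 ^ Fintype.card X * (cst p ^ (p - 1) * cst p ^ (Fintype.card X - p)) := by
        refine mul_le_mul_of_nonneg_left (mul_le_mul_of_nonneg_right (one_add_le_cst_pow p) ?_) (by positivity)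
        linarith
    _ = _ := by
        rw [← pow_add]; congr 2; have := hp.out.two_le; omega

end Cfsg.Agent.H91.PermClasses
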